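import Groth.Agent.Etcore.SmoothRed
import Groth.Agent.Sga5.ProjSmooth
import Groth.Agent.CohqB.ProjBC

/-!
# Smoothness and reducedness of projective spaces over a base

`smooth_toBase`, `isReduced_projSpaceOver`, `isReduced_projSpace`, and the comparison of the two models over an affine
base (`CohqB.ProjBC.projSpaceOverIso`).
-/

set_option autoImplicit false
universe u

open CategoryTheory CategoryTheory.Limits AlgebraicGeometry

namespace Groth.Agent.Gaga.H364.ProjRed

/-- `P^n_Y ⟶ Y` is smooth of relative dimension `n`. -/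
instance smoothOfRelDim_toBase (n : ℕ) (Y : Scheme.{u}) :
    SmoothOfRelativeDimension n (CohB1.ProjSpaceOver.toBase n Y) :=
  (smoothOfRelativeDimension_isStableUnderBaseChange (n := n)).of_isPullback
    (Groth.Agent.CohqB.ProjBC.isPullback_fstZ n Y)
    (Groth.Agent.Sga5.ProjSmooth.smooth_toSpec n (ULift.{u} ℤ))

/-- `P^n_Y ⟶ Y` is smooth. -/
instance smooth_toBase (n : ℕ) (Y : Scheme.{u}) : Smooth (CohB1.ProjSpaceOver.toBase n Y) :=
  SmoothOfRelativeDimension.smooth n (CohB1.ProjSpaceOver.toBase n Y)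

instance smooth_toSpec (n : ℕ) (R : Type u) [CommRing R] : Smooth (CohB1.ProjSpace.toSpec n R) :=
  SmoothOfRelativeDimension.smooth n (CohB1.ProjSpace.toSpec n R)

/-- `P^n_Y` is reduced for `Y` reduced. -/
theorem isReduced_projSpaceOver (n : ℕ) (Y : Scheme.{u}) [IsReduced Y] :
    IsReduced (CohB1.ProjSpaceOver n Y) :=
  Groth.Agent.Etcore.SmoothRed.isReduced_of_smooth (CohB1.ProjSpaceOver.toBase n Y)

/-- `P^n_R` is reduced for `R` reduced. -/
theorem isReduced_projSpace (n : ℕ) (R : Type u) [CommRing R] [_root_.IsReduced R] :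
    IsReduced (CohB1.ProjSpace n R) :=
  Groth.Agent.Etcore.SmoothRed.isReduced_of_smooth (CohB1.ProjSpace.toSpec n R)

end Groth.Agent.Gaga.H364.ProjRed
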