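import Groth.Agent.Ega3B.ProjTwist
import Groth.Agent.Ega3B.TensorIso
import Groth.Agent.Smoothlim.ModKer
import Groth.Agent.Ega2.TensMon

/-!
# Embedding a module on projective space into sums of twists

`exists_mono`: for `M` on `P^n_R` and `k : ℕ` there is a monomorphism `M ⟶ ⨁_{i = 0}^n M(k)` (multiplication by `X_i^k`).
-/

set_option autoImplicit false
universe u

open CategoryTheory CategoryTheory.Limits AlgebraicGeometry

namespace Groth.Agent.Gaga.H364.TwEmb

attribute [local instance] Abelian.hasFiniteBiproducts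

open Groth.Agent.Fdesc Groth.Agent.Ega2.Tens

/-- A map to a finite biproduct, the components of which are injective on sections over the members of a cover, is a
monomorphism. -/
theorem mono_lift {X : Scheme.{u}} {ι : Type} [Finite ι] (U : ι → X.Opens) (hU : ⨆ i, U i = ⊤) {M : X.Modules}
    {N : ι → X.Modules} (f : ∀ i, M ⟶ N i)
    (h : ∀ (i : ι) (V : X.Opens), V ≤ U i → Function.Injective ((f i).app V)) :
    Mono (biproduct.lift f) := by
  refine Smoothlim.ModKer.mono_of_app_injective _ fun W => ?_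
  intro s t hst
  refine LocGen.res_ext M (fun i => W ⊓ U i) (fun i => inf_le_left) ?_ fun i => ?_
  · intro x hx
    obtain ⟨j, hj⟩ := TopologicalSpace.Opens.mem_iSup.mp
      (show x ∈ ⨆ i, U i by rw [hU]; trivial)
    exact TopologicalSpace.Opens.mem_iSup.mpr ⟨j, hx, hj⟩
  · apply h i (W ⊓ U i) inf_le_right
    have h1 : (f i).app W s = (f i).app W t := by
      have h2 := congrArg ((biproduct.π N i).app W) hst
      have h3 : ∀ a : Γ(M, W), (biproduct.π N i).app W ((biproduct.lift f).app W a) = (f i).app W a := by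
        intro a
        have h4 := congr((Scheme.Modules.Hom.app $(biproduct.lift_π f i) W) a)
        exact h4
      rw [h3, h3] at h2
      exact h2
    have h5 := congrArg (LocGen.res (N i) (inf_le_left : W ⊓ U i ≤ W)) h1
    exact ((ConcreteCategory.congr_hom ((f i).mapPresheaf.naturality (homOfLE (inf_le_left : W ⊓ U i ≤ W)).op) s).trans h5).trans
      (ConcreteCategory.congr_hom ((f i).mapPresheaf.naturality (homOfLE (inf_le_left : W ⊓ U i ≤ W)).op) t).symm

variable (n : ℕ) (R : Type u) [CommRing R]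

/-- `X_i ^ k` as a homogeneous element of degree `k`. -/
noncomputable def powVar (i : Fin (n + 1)) (k : ℕ) : CohB1.polyGrading n R k :=
  ⟨MvPolynomial.X i ^ k, MvPolynomial.isHomogeneous_X_pow i k⟩

/-- Multiplication by `X_i ^ k` as a map `O(d) ⟶ O(d + k)`. -/
noncomputable def mulPow (i : Fin (n + 1)) (k : ℕ) (d e : ℤ) (h : e = d + k) :
    Twist.twistProjSpace n R d ⟶ Twist.twistProjSpace n R e :=
  PerfB.TwistMul.mulT (powVar n R i k) d e h

theorem mulPow_app_bijective (i : Fin (n + 1)) (k : ℕ) (d e : ℤ) (h : e = d + k)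
    (V : (CohB1.ProjSpace n R).Opens) (hV : V ≤ Ega3B.ProjTwist.D n R i) :
    Function.Bijective ((mulPow n R i k d e h).app V) :=
  PerfB.TwistMul.mulT_app_bijective (powVar n R i k) d e h V
    (hV.trans fun x hx hx' => hx (x.isPrime.mem_of_pow_mem k hx'))

variable {n R}

/-- `M ⊗ (multiplication by X_i ^ k) : M(d) ⟶ M(d + k)`. -/
noncomputable def tmul (M : (CohB1.ProjSpace n R).Modules) (i : Fin (n + 1)) (k : ℕ) (d e : ℤ) (h : e = d + k) :
    CohB1.tensorMod M (Twist.twistProjSpace n R d) ⟶ CohB1.tensorMod M (Twist.twistProjSpace n R e) :=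
  mapT (𝟙 M) (mulPow n R i k d e h)

theorem tmul_app_bijective (M : (CohB1.ProjSpace n R).Modules) (i : Fin (n + 1)) (k : ℕ) (d e : ℤ)
    (h : e = d + k) (V : (CohB1.ProjSpace n R).Opens) (hV : V ≤ Ega3B.ProjTwist.D n R i) :
    Function.Bijective ((tmul M i k d e h).app V) :=
  Ega3B.TensorIso.mapT_app_bijective _ (Ega3B.ProjTwist.D n R i)
    (fun W hW => mulPow_app_bijective n R i k d e h W hW) V hV

theorem iSup_D : ⨆ i, Ega3B.ProjTwist.D n R i = ⊤ := by
  rw [eq_top_iff]
  intro x _
  obtain ⟨i, hi⟩ := PerfB.ProjSpaceCover.exists_mem_basicOpen_X n R x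
  exact TopologicalSpace.Opens.mem_iSup.mpr ⟨i, hi⟩

/-- `M(d) ⟶ ⨁_i M(d + k)`. -/
theorem exists_mono_twist (M : (CohB1.ProjSpace n R).Modules) (k : ℕ) (d e : ℤ) (h : e = d + k) :
    Mono (biproduct.lift fun i : Fin (n + 1) => tmul M i k d e h) :=
  mono_lift (Ega3B.ProjTwist.D n R) iSup_D _ fun i V hV => (tmul_app_bijective M i k d e h V hV).1

/-- `M(0) ≅ M`. -/
theorem nonempty_zero (M : (CohB1.ProjSpace n R).Modules) :
    Nonempty (CohB1.tensorMod M (Twist.twistProjSpace n R 0) ≅ M) := by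
  obtain ⟨e⟩ := Ega2.TwistInv.nonempty_unit_iso (CohB1.polyGrading n R)
  exact ⟨mapTIso (Iso.refl M) e.symm ≪≫ runit M⟩

/-- **Embedding into twists.** -/
theorem exists_mono (M : (CohB1.ProjSpace n R).Modules) (k : ℕ) :
    ∃ g : M ⟶ ⨁ fun _ : Fin (n + 1) => CohB1.tensorMod M (Twist.twistProjSpace n R (k : ℤ)), Mono g := by
  obtain ⟨e⟩ := nonempty_zero M
  have := exists_mono_twist M k 0 (k : ℤ) (by simp)
  exact ⟨e.inv ≫ biproduct.lift fun i : Fin (n + 1) => tmul M i k 0 (k : ℤ) (by simp), inferInstance⟩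

end Groth.Agent.Gaga.H364.TwEmb
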